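import Mathlib
import Cfsg.Agent.Base
import Cfsg.Agent.Lib.MinDeg8.U3Spec

/-!
Upper bounds for element orders in `PSU₃(q)`, any characteristic.
-/

set_option autoImplicit false
set_option linter.unusedSectionVars false

namespace H8.U3

open Matrix Cfsg H11.U

variable {F : Type*} [Field F] [Fintype F] {q : ℕ} [IsSq F q]

set_option hygiene false in
local notation "V" => (Fin 3 → F)
set_option hygiene false in
local notation "G" => SU 3 F q
set_option hygiene false in
local notation "⟪" u "," v "⟫" => hermForm 3 F q u v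
set_option hygiene false in
local notation "KK" => AlgebraicClosure F
set_option hygiene false in
local notation "ι" => algebraMap F (AlgebraicClosure F)

theorem exists_root_quad {t n : F} (ht : cj q t = t) (hn : cj q n = n) :
    ∃ x : F, x ^ 2 - t * x + n = 0 := by
  obtain ⟨α, hα⟩ := IsAlgClosed.exists_aeval_eq_zero KK
    (Polynomial.X ^ 2 - Polynomial.C t * Polynomial.X + Polynomial.C n : Polynomial F) (by
      rw [show (Polynomial.X ^ 2 - Polynomial.C t * Polynomial.X + Polynomial.C n : Polynomial F).degree = 2 by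
        compute_degree!]
      norm_num)
  simp only [map_add, map_sub, map_mul, map_pow, Polynomial.aeval_X, Polynomial.aeval_C] at hα
  obtain ⟨φ, hφ⟩ := exists_frob F q
  have h2 : ∀ x : F, φ (ι x) = ι (cj q x) := fun x => by rw [hφ, cj_apply, map_pow]
  have h1 := congrArg φ hα
  simp only [map_add, map_sub, map_mul, map_pow, map_zero, h2, ht, hn] at h1
  have h3 : (φ α - α) * (φ α + α - ι t) = 0 := by linear_combination h1 - hα
  have h4 : φ (φ α) = α := by
    rcases mul_eq_zero.1 h3 with h | h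
    · rw [sub_eq_zero.1 h, sub_eq_zero.1 h]
    · have := congrArg φ h
      simp only [map_add, map_sub, map_zero, h2, ht] at this
      linear_combination this - h
  obtain ⟨c, hc⟩ := mem_range_of_pow (q := q) (x := α) (by rw [sq, pow_mul, ← hφ, ← hφ, h4])
  refine ⟨c, (algebraMap F KK).injective ?_⟩
  simp only [map_add, map_sub, map_mul, map_pow, map_zero, hc, hα]

theorem exists_eig_perp' {g : G} {w : V} (hw : ⟪w, w⟫ = 1) (hg : g ∈ St q w) :
    ∃ u : V, u ≠ 0 ∧ ⟪u, w⟫ = 0 ∧ g ∈ St q u := by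
  obtain ⟨e, f, h⟩ := exists_fr_of_norm hw
  have e1 := h.expand_perp (perp_ac h.w_ne hg h.ew)
  have e2 := h.expand_perp (perp_ac h.w_ne hg h.fw)
  generalize ⟪ac g e, f⟫ = a at e1
  generalize ⟪ac g e, e⟫ = c at e1
  generalize ⟪ac g f, f⟫ = b at e2
  generalize ⟪ac g f, e⟫ = d at e2
  obtain ⟨κ, hκ⟩ := hg
  have e1' : ac g e = a • e + (0 : F) • w + c • f := by simp [e1]
  have e2' : ac g f = b • e + (0 : F) • w + d • f := by simp [e2]
  have h1 := h.det_eq e1' (b₁ := 0) (b₂ := κ) (b₃ := 0) (by simp [hκ]) e2'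
  have hN := norm_of_smul hw (by rw [← hκ, form_ac, hw])
  have a1 := form_ac g e e
  have a2 := form_ac g e f
  have a3 := form_ac g f e
  have a4 := form_ac g f f
  simp only [e1', e2', h.form_form, h.ee, h.ef, h.fe, h.ff] at a1 a2 a3 a4
  have b1 : cj q a = κ * a := by linear_combination κ * a * a3 - κ * b * a1 - cj q a * h1
  have b2 : cj q d = κ * d := by linear_combination κ * d * a2 - κ * c * a4 - cj q d * h1
  obtain ⟨s, hs0, hs⟩ := exists_div_cj_eq (q := q) (a := cj q κ) (by rw [cj_cj, mul_comm, hN])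
  have hs1 := cj_ne_zero (q := q).2 hs0
  obtain ⟨r, hr⟩ := exists_root_quad (q := q) (t := (a + d) * cj q s) (n := s * cj q s) (by
    rw [map_mul, map_add, cj_cj, b1, b2]
    linear_combination (-κ * (a + d)) * hs + (a + d) * cj q s * hN) (cj_norm s)
  obtain ⟨v, hv, hv'⟩ := H29.exists_eigen (m := !![a, b; c, d]) (a := r / cj q s) (by
    rw [trace_fin_two_of, det_fin_two_of]
    have : a * d - b * c = cj q κ := by linear_combination cj q κ * h1 - (a * d - b * c) * hN
    rw [this]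
    field_simp
    linear_combination hr + cj q s * hs)
  rw [H29.eigen_iff] at hv'
  simp only [of_apply, cons_val', cons_val_zero, cons_val_one, cons_val_fin_one] at hv'
  refine ⟨v 0 • e + (0 : F) • w + v 1 • f, fun h0 => hv ?_, h.form_w _ _ _, r / cj q s, ?_⟩
  · obtain ⟨c1, -, c2⟩ := h.comb_inj (a' := 0) (b' := 0) (c' := 0) (h0.trans (by simp))
    ext i; fin_cases i <;> simp [c1, c2]
  · rw [ac_add, ac_add, ac_smul, ac_smul, ac_smul, e1, e2]
    linear_combination (norm := module) hv'.1 • e + hv'.2 • f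

theorem upper_norm' {g : G} (hg : ∀ e, Iso q e → g ∉ St q e) {v : V} (hv : v ≠ 0)
    (hgv : g ∈ St q v) : g ^ (q + 1) = 1 := by
  have key : ∀ v : V, v ≠ 0 → g ∈ St q v → ∃ a : F, ⟪a • v, a • v⟫ = 1 ∧ g ∈ St q (a • v) := by
    intro v h0 h1
    obtain ⟨a, ha, h3⟩ := exists_norm_one (w := v) fun h => hg v ⟨h0, h⟩ h1
    exact ⟨a, h3, by rwa [St_smul ha]⟩
  obtain ⟨a, hw, hw'⟩ := key v hv hgv
  generalize a • v = w at hw hw'
  obtain ⟨u₀, b1, b2, b3⟩ := exists_eig_perp' hw hw'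
  obtain ⟨b, hu, hu'⟩ := key u₀ b1 b3
  have huw : ⟪b • u₀, w⟫ = 0 := by rw [form_smul_left, b2, mul_zero]
  generalize b • u₀ = u at hu hu' huw
  obtain ⟨z, hz, c1, c2⟩ := exists_perp_norm (by rw [hu]; exact one_ne_zero) (by rw [hw]; exact one_ne_zero) huw
  have hz' : g ∈ St q z := ⟨_, by
    have := on_expand hu hw hz huw c1 c2 (ac g z)
    rwa [perp_ac (ne_zero_of_norm hw) hw' c1, perp_ac (ne_zero_of_norm hu) hu' c2, zero_smul, zero_smul,
      zero_add, zero_add] at this⟩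
  have k2 : ∀ x : V, ⟪x, x⟫ = 1 → g ∈ St q x → ac (g ^ (q + 1)) x = x := by
    rintro x hx ⟨l, hl⟩
    rw [ac_pow hl, ← mul_cj, norm_of_smul hx (by rw [← hl, form_ac, hx]), one_smul]
  refine ac_ext fun x => ?_
  rw [ac_one]
  conv_lhs => rw [on_expand hu hw hz huw c1 c2 x, ac_add, ac_add, ac_smul, ac_smul, ac_smul, k2 u hu hu',
    k2 w hw hw', k2 z hz hz']
  exact (on_expand hu hw hz huw c1 c2 x).symm

theorem upper_iso' {g : G} {e : V} (he : Iso q e)
    (hg : g ∈ St q e) : g ^ (q ^ 3 * ((q + 1) / Nat.gcd 3 (q + 1))) ∈ Subgroup.center G ∨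
      g ^ ((q ^ 2 - 1) / Nat.gcd 3 (q + 1)) ∈ Subgroup.center G := by
  obtain ⟨l, hl⟩ := hg
  obtain ⟨w, f, h⟩ := he.exists_fr
  have hl0 := ne_zero_of_ac he.1 hl
  by_cases hN : l * cj q l = 1
  · obtain ⟨z, hz, u, hu, e1⟩ := exists_center_mul hl (n := (q + 1) / Nat.gcd 3 (q + 1))
      (by rw [Nat.div_mul_cancel (Nat.gcd_dvd_right _ _), ← mul_cj, hN])
    left
    have h2 : u ^ q ^ 3 = 1 := by
      rw [← card_Fx he]
      exact congrArg Subtype.val (pow_card_eq_one' (x := (⟨u, hu⟩ : Fx q e)))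
    rw [mul_comm, pow_mul, e1, Commute.mul_pow (Subgroup.mem_center_iff.1 hz u).symm, h2, mul_one]
    exact pow_mem hz _
  · obtain ⟨z, hz, u, hu, e1⟩ := exists_center_mul hl (n := (q ^ 2 - 1) / Nat.gcd 3 (q + 1))
      (by rw [Nat.div_mul_cancel (gcd_dvd_sq_sub q), ← IsSq.card_eq (F := F),
        FiniteField.pow_card_sub_one_eq_one l hl0])
    right
    have h3 : g * u * g⁻¹ = u := by
      have a1 : u = z⁻¹ * g ^ ((q ^ 2 - 1) / Nat.gcd 3 (q + 1)) := by rw [e1]; group
      rw [a1, ← mul_assoc, Subgroup.mem_center_iff.1 (inv_mem hz) g]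
      group
    have h4 := h.xx_conj hl hu
    rw [h3] at h4
    have h5 : xx q w f u = 0 := by
      by_contra h0
      have a1 : cj q l ^ 2 = l := (div_eq_one_iff_eq hl0).1 ((mul_eq_right₀ h0).1 h4.symm)
      have a2 := congrArg (cj q) a1
      rw [map_pow, cj_cj] at a2
      apply hN
      rw [← a2] at a1 ⊢
      exact mul_left_cancel₀ hl0 (by linear_combination a1)
    have h6 := h.cj_cc hu h5
    rw [h.eq_tv hu h5, conj_tv', hl, tv_smul he.2 h6] at h3
    have h7 := congrArg (cc q f) h3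
    rw [h.cc_tv h6, h.cc_tv (by rw [map_mul, cj_norm, h6, mul_neg])] at h7
    have h8 : cc q f u = 0 := by
      by_contra h0
      exact hN ((mul_eq_right₀ h0).1 h7)
    rw [e1, h.eq_tv hu h5, h8, tv_zero, mul_one]
    exact hz

theorem orderOf_upper (g : PSU 3 F q) :
    orderOf g ∣ q + 1 ∨ orderOf g ∣ q ^ 3 * ((q + 1) / Nat.gcd 3 (q + 1)) ∨
      orderOf g ∣ (q ^ 2 - 1) / Nat.gcd 3 (q + 1) ∨ orderOf g ∣ (q ^ 2 - q + 1) / Nat.gcd 3 (q + 1) := by
  obtain ⟨g, rfl⟩ := QuotientGroup.mk_surjective g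
  simp only [orderOf_mk_dvd_iff]
  by_cases h3 : ∃ e, Iso q e ∧ g ∈ St q e
  · obtain ⟨e, he, hg⟩ := h3
    have := upper_iso' he hg
    tauto
  push Not at h3
  by_cases h4 : ∃ v, v ≠ 0 ∧ g ∈ St q v
  · obtain ⟨v, hv, hg⟩ := h4
    rw [upper_norm' h3 hv hg]
    exact Or.inl (one_mem _)
  · push Not at h4
    exact Or.inr (Or.inr (Or.inr (upper_irr h4)))

variable (F q) in
theorem exists_orderOf_of {N s : ℕ} (h : ∃ g : G, ∀ k, g ^ k ∈ Subgroup.center G → N ∣ k) (hs : s ∣ N) :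
    ∃ g : PSU 3 F q, orderOf g = s := by
  obtain ⟨g, hg⟩ := h
  exact H65.exists_orderOf_eq_of_dvd (hs.trans (hg _ (orderOf_mk_dvd_iff.1 dvd_rfl)))

end H8.U3
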